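import Mathlib
import Cfsg.Agent.Lib.Cover.FongReynolds
import Cfsg.Agent.Lib.Star.Stable
import Cfsg.Agent.Lib.CharGal.Basic

/-! Brauer's bound for heights by the number of major subsections. -/

set_option autoImplicit false
set_option linter.unusedSectionVars false

namespace CfsgLib.Cover

attribute [local implicit_reducible] CfsgLib.Block.K

open Cfsg MonoidAlgebra CfsgLib.Char CfsgLib.Block CfsgLib.Blk CfsgLib.Star Finset
open CfsgLib.BrPair (cS Cz Nz Ce br IsBlk sB cB MaxPair stN stC)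
open scoped ComplexConjugate

/-- `x` is totally nonnegative in the `n`-th cyclotomic field. -/
def TNN (n : ℕ) (x : ℂ) : Prop :=
  ∀ (hx : x ∈ cycField n) (σ : cycField n →ₐ[ℚ] ℂ), ∃ r : ℝ, 0 ≤ r ∧ σ ⟨x, hx⟩ = r

theorem tnn_of_sum {n : ℕ} (hn : n ≠ 0) {ι : Type*} (s : Finset ι) (α : ι → ℂ)
    (hα : ∀ i ∈ s, α i ∈ cycInt n) {c : ℕ} (hc : c ≠ 0) {x : ℂ}
    (h : ∑ i ∈ s, α i * conj (α i) = c * x) : TNN n x := by
  intro hx σ
  let a : s → cycField n := fun i => ⟨α i, mem_cycField_of_mem_cycInt (hα i i.2)⟩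
  let a' : s → cycField n :=
    fun i => ⟨conj (α i), mem_cycField_of_mem_cycInt (conj_mem_cycInt hn (hα i i.2))⟩
  have hK : ∑ i : s, a i * a' i = (c : cycField n) * ⟨x, hx⟩ := by
    apply Subtype.ext
    rw [← Finset.sum_coe_sort] at h
    simpa [a, a'] using h
  have h1 := congrArg σ hK
  have h2 : ∀ i : s, σ (a' i) = conj (σ (a i)) := fun i => emb_conj hn σ (hα i i.2)
  simp only [map_sum, map_mul, map_natCast, h2, Complex.mul_conj] at h1
  have hc' : (c : ℂ) ≠ 0 := Nat.cast_ne_zero.2 hc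
  refine ⟨(∑ i : s, Complex.normSq (σ (a i))) / c,
    div_nonneg (Finset.sum_nonneg fun i _ => Complex.normSq_nonneg _) (Nat.cast_nonneg c), ?_⟩
  push_cast
  rw [h1, mul_div_cancel_left₀ _ hc']

theorem card_le_sum_re_emb {K : Type*} [Field K] [Algebra ℚ K] [FiniteDimensional ℚ K]
    (x : K) (hx : IsIntegral ℤ x) (h0 : x ≠ 0)
    (hpos : ∀ σ : K →ₐ[ℚ] ℂ, ∃ r : ℝ, 0 ≤ r ∧ σ x = r) :
    (Fintype.card (K →ₐ[ℚ] ℂ) : ℝ) ≤ ∑ σ : K →ₐ[ℚ] ℂ, (σ x).re := by
  have : CharZero K := algebraRat.charZero K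
  have : NumberField K := NumberField.of_module_finite ℚ K
  choose r hr hr' using hpos
  have hN : algebraMap ℚ ℂ (Algebra.norm ℚ x) = ∏ σ : K →ₐ[ℚ] ℂ, σ x :=
    Algebra.norm_eq_prod_embeddings ℚ ℂ x
  have hint : IsIntegral ℤ (Algebra.norm ℚ x) := Algebra.isIntegral_norm ℚ hx
  obtain ⟨z, hz⟩ := IsIntegrallyClosed.isIntegral_iff.1 hint
  have hr0 : ∀ σ, 0 < r σ := fun σ => lt_of_le_of_ne (hr σ) fun h => by
    have := hr' σ
    rw [← h, Complex.ofReal_zero, map_eq_zero] at this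
    exact h0 this
  have h1 : (z : ℝ) = ∏ σ, r σ := by
    have : (algebraMap ℚ ℂ) (algebraMap ℤ ℚ z) = (z : ℂ) := by simp
    rw [← hz, this] at hN
    simp only [hr'] at hN
    exact_mod_cast hN
  have h2 : (0 : ℝ) < z := h1 ▸ Finset.prod_pos fun σ _ => hr0 σ
  have h3 : (1 : ℝ) ≤ z := by exact_mod_cast (show (0 : ℤ) < z by exact_mod_cast h2)
  simp only [hr', Complex.ofReal_re]
  exact CharGal.card_le_sum_of_one_le_prod univ r (fun σ _ => hr0 σ) (h1 ▸ h3)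

theorem sum_weight_le_of_tnn {n : ℕ} (hn : n ≠ 0) {ι : Type*} {s t : Finset ι} (hts : t ⊆ s)
    (y : ι → ℂ) (w : ι → ℕ) (hy : ∀ i ∈ s, y i ∈ cycInt n) (hy' : ∀ i ∈ s, TNN n (y i))
    (h0 : ∀ i ∈ t, y i ≠ 0) {N : ℕ} (h : ∑ i ∈ s, (w i : ℂ) * y i = N) : ∑ i ∈ t, w i ≤ N := by
  classical
  have := finiteDimensional_cycField hn
  set K := cycField n
  let a : ι → K := fun i => if hi : i ∈ s then ⟨y i, mem_cycField_of_mem_cycInt (hy i hi)⟩ else 0
  have ha : ∀ i (hi : i ∈ s), a i = ⟨y i, mem_cycField_of_mem_cycInt (hy i hi)⟩ :=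
    fun i hi => dif_pos hi
  have hK : ∑ i ∈ s, (w i : K) * a i = (N : K) := by
    apply Subtype.ext
    push_cast
    rw [← h]
    exact Finset.sum_congr rfl fun i hi => by rw [ha i hi]
  have hpos : ∀ i ∈ s, ∀ σ : K →ₐ[ℚ] ℂ, ∃ r : ℝ, 0 ≤ r ∧ σ (a i) = r := fun i hi σ => by
    rw [ha i hi]
    exact hy' i hi _ σ
  have hσ : ∀ σ : K →ₐ[ℚ] ℂ, ∑ i ∈ t, (w i : ℝ) * (σ (a i)).re ≤ (N : ℝ) := by
    intro σ
    have h1 := congrArg (fun x => (σ x).re) hK
    simp only [map_sum, map_mul, map_natCast, Complex.re_sum, Complex.mul_re,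
      Complex.natCast_re, Complex.natCast_im, zero_mul, sub_zero] at h1
    rw [← h1]
    refine Finset.sum_le_sum_of_subset_of_nonneg hts fun i hi _ => ?_
    obtain ⟨r, hr, hr'⟩ := hpos i hi σ
    rw [hr', Complex.ofReal_re]
    positivity
  have hcard : 0 < (Fintype.card (K →ₐ[ℚ] ℂ) : ℝ) := by
    have : Nonempty (K →ₐ[ℚ] ℂ) := ⟨K.val⟩
    exact_mod_cast Fintype.card_pos
  have hsum := Finset.sum_le_sum fun σ (_ : σ ∈ univ) => hσ σ
  rw [Finset.sum_comm, Finset.sum_const, Finset.card_univ, nsmul_eq_mul] at hsum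
  have hle : ∑ i ∈ t, (w i : ℝ) * Fintype.card (K →ₐ[ℚ] ℂ) ≤
      ∑ i ∈ t, ∑ σ : K →ₐ[ℚ] ℂ, (w i : ℝ) * (σ (a i)).re := by
    refine Finset.sum_le_sum fun i hi => ?_
    rw [← Finset.mul_sum]
    refine mul_le_mul_of_nonneg_left (card_le_sum_re_emb _ ?_ ?_ (hpos i (hts hi)))
      (Nat.cast_nonneg _)
    · rw [ha i (hts hi)]
      exact (isIntegral_algHom_iff (K.val.restrictScalars ℤ) K.val.toRingHom.injective).1
        (isIntegral_of_mem_cycInt hn (hy i (hts hi)))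
    · rw [ha i (hts hi)]
      exact fun h' => h0 i hi (congrArg Subtype.val h')
  have h2 := hle.trans hsum
  rw [← Finset.sum_mul, mul_comm] at h2
  exact_mod_cast le_of_mul_le_mul_left h2 hcard

variable {G : Type*} [Group G] [Finite G] {p : ℕ} {M : Ideal AlgInt} [hp : Fact p.Prime]

theorem le_Cz_zpowers {P : Subgroup G} {u : G} (hu : u ∈ Cz P) : P ≤ Cz (Subgroup.zpowers u) :=
  Subgroup.le_centralizer_iff.1 ((Subgroup.zpowers_le).2 hu)

theorem exists_stN_of_fus {k : Type*} [Field k] [CharP k p] {b e : k[G]} {P : Subgroup G}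
    (h : MaxPair p ⊤ ⊤ b P e) {u v : G} (huv : Fus p P e u v) (hu : u ∈ Cz P) (hv : v ∈ Cz P) :
    ∃ t ∈ stN ⊤ P e, t * u * t⁻¹ = v := by
  obtain ⟨g, hg, rfl⟩ := huv
  obtain ⟨f, hf⟩ := h.exists_sub hg.le
  obtain ⟨c, hc, hcg⟩ := h.exists_mul_mem_stN_of_tr hf (le_Cz_zpowers hu) hg
    (by rw [cS_zpowers]; exact le_Cz_zpowers hv)
  refine ⟨c * g, hcg, ?_⟩
  have h1 := BrPair.mem_Cz.1 hc.1.2 (g * u * g⁻¹) (by rw [cS_zpowers]; exact Subgroup.mem_zpowers _)
  calc c * g * u * (c * g)⁻¹ = c * (g * u * g⁻¹) * c⁻¹ := by group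
    _ = _ := by rw [← h1]; group

theorem card_le_relIndex_of_conj {H T : Subgroup G} {z : G} (hz : ∀ x ∈ H, x * z * x⁻¹ = z)
    (s : Finset G) (hs : ∀ y ∈ s, ∃ t ∈ T, t * z * t⁻¹ = y) : s.card ≤ H.relIndex T := by
  classical
  have := Fintype.ofFinite (T ⧸ H.subgroupOf T)
  rw [Subgroup.relIndex, Subgroup.index, Nat.card_eq_fintype_card, ← Finset.card_univ]
  refine Finset.card_le_card_of_surjOn (fun q => (q.out : G) * z * (q.out : G)⁻¹) fun y hy => ?_
  obtain ⟨t, ht, rfl⟩ := hs y hy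
  obtain ⟨x, hx⟩ := QuotientGroup.mk_out_eq_mul (H.subgroupOf T) ⟨t, ht⟩
  refine ⟨QuotientGroup.mk ⟨t, ht⟩, Finset.mem_coe.2 (Finset.mem_univ _), ?_⟩
  beta_reduce
  rw [hx, Subgroup.coe_mul, mul_inv_rev]
  calc t * x * z * (((x : T) : G)⁻¹ * t⁻¹) = t * (x * z * ((x : T) : G)⁻¹) * t⁻¹ := by group
    _ = _ := by rw [hz ((x : T) : G) x.2]

/-- **Brauer.** `|Z(P)| p^h ≤ e p^d`. -/
theorem card_center_mul_pow_height_le {hM : IsPModular p M} {B : Set (IrrCharacter G)}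
    {P : Subgroup G} {e : (K hM)[G]} (h : MaxPair p ⊤ ⊤ (eB hM B) P e) (hB : IsPBlock M B)
    {χ : IrrCharacter G} (hχ : χ ∈ B) :
    Nat.card (P ⊓ Cz P : Subgroup G) * p ^ blockHeight p B (χ : G → ℂ) ≤
      (P ⊔ Cz P).relIndex (stN ⊤ P e) * p ^ blockDefect p B := by
  classical
  have := Fintype.ofFinite G
  have : ∀ u : G, Fintype (Cu u) := fun u => Fintype.ofFinite _
  obtain ⟨R, hR, -⟩ := exists_isFReps h
  set d := blockDefect p B with hd
  set ht := blockHeight p B (χ : G → ℂ) with hht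
  have hn : Nat.card P * p ≠ 0 := mul_ne_zero Nat.card_pos.ne' hM.1.ne_zero
  have hχ' := isGenChar_of_isCharacter (irr_isCharacter χ)
  have hdvd : ∀ u ∈ P, orderOf u ∣ Nat.card P := fun u hu => P.orderOf_dvd_natCard hu
  have hau : ∀ u ∈ P, ∀ ψ : IrrCharacter G,
      au p u (bu hM P e u) χ ψ ∈ cycInt (Nat.card P * p) := fun u hu ψ =>
    cycInt_mono ((hdvd u hu).mul_right p)
      (au_mem_cycInt _ hχ' (isGenChar_of_isCharacter (irr_isCharacter ψ)))
  let R' := R.filter fun u => ∃ z ∈ P ⊓ Cz P, Fus p P e z u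
  have key : ∀ u ∈ R, ∃ (w : ℕ) (y : ℂ), y ∈ cycInt (Nat.card P * p) ∧ TNN (Nat.card P * p) y ∧
      (w : ℂ) * y = (p : ℂ) ^ d * mu p u (bu hM P e u) χ χ ∧ (u ∈ R' → w = p ^ ht ∧ y ≠ 0) := by
    intro u hu
    by_cases hu' : u ∈ R'
    · obtain ⟨z, hz, hzu⟩ := (Finset.mem_filter.1 hu').2
      have hzc : P ≤ Cu z := fun x hx => mem_Cu.2 (BrPair.mem_Cz.1 hz.2 x hx).symm
      have hdz := defect_bu_of_central h hB hz.1 hzc
      have hind := induced_bu h hB hz.1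
      have hpz := pElt_of_mem h hz.1
      obtain ⟨y, hy, hy', -⟩ := exists_au_eq hM hpz hind.1 hdz hχ hχ'
      have h1 := sum_au_mul_conj hM hpz hind (χ : G → ℂ)
      refine ⟨p ^ ht, y, cycInt_mono (mul_dvd_mul_right (hdvd z hz.1) p) hy,
        tnn_of_sum hn (bf B) (fun ψ : IrrCharacter G => au p z (bu hM P e z) χ ψ)
          (fun ψ _ => hau z hz.1 ψ)
          (c := p ^ blockDefect p (bu hM P e z) * p ^ ht)
          (mul_ne_zero (pow_ne_zero _ hM.1.ne_zero) (pow_ne_zero _ hM.1.ne_zero)) ?_, ?_,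
        fun _ => ⟨rfl, fun h0 => ?_⟩⟩
      · rw [h1, hy']
        push_cast
        ring
      · rw [mu_bu_of_fus h hzu (irr_isClassFunction χ) (irr_isClassFunction χ), hd, ← hdz]
        push_cast
        exact hy'.symm
      · rw [h0, mul_zero, au, mul_eq_zero, mu, classInner_self_eq_zero] at hy'
        exact hy'.elim (pow_ne_zero _ (Nat.cast_ne_zero.2 hM.1.ne_zero))
          (sp_ne_zero_of_major hM hpz hind hdz hχ)
    · have huP := hR.1 u hu
      have hind := induced_bu h hB huP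
      obtain ⟨c, hc⟩ := Nat.exists_eq_add_of_le (defect_le_of_induced hM hind)
      refine ⟨p ^ c, _, hau u huP χ, tnn_of_sum hn (bf B)
        (fun ψ : IrrCharacter G => au p u (bu hM P e u) χ ψ) (fun ψ _ => hau u huP ψ)
        (c := p ^ blockDefect p (bu hM P e u)) (pow_ne_zero _ hM.1.ne_zero) ?_, ?_,
        fun h0 => absurd h0 hu'⟩
      · rw [sum_au_mul_conj hM (pElt_of_mem h huP) hind, Nat.cast_pow]
      · rw [hd, hc, au]
        push_cast
        ring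
  choose! w y hy hy' hwy hR' using key
  have h1 : ∑ u ∈ R', w u ≤ p ^ d := by
    refine sum_weight_le_of_tnn hn (Finset.filter_subset _ R) y w hy hy'
      (fun u hu => (hR' u (Finset.mem_filter.1 hu).1 hu).2) ?_
    rw [Finset.sum_congr rfl hwy, ← Finset.mul_sum,
      sum_mu_reps h hB hR (irr_isClassFunction χ) (irr_isClassFunction χ),
      classInner_blockPart_of_mem _ hχ, classInner_irr_self χ.2, mul_one, Nat.cast_pow]
  rw [Finset.sum_congr rfl fun u hu => (hR' u (Finset.mem_filter.1 hu).1 hu).1, Finset.sum_const,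
    smul_eq_mul] at h1
  have h2 : Nat.card (P ⊓ Cz P : Subgroup G) ≤ (P ⊔ Cz P).relIndex (stN ⊤ P e) * R'.card := by
    choose! f hf hf' using hR.2
    have h3 : Nat.card (P ⊓ Cz P : Subgroup G) = (univ.filter (· ∈ P ⊓ Cz P)).card := by
      rw [Nat.card_eq_fintype_card, Fintype.card_subtype]
    rw [h3]
    refine Finset.card_le_mul_card_image_of_maps_to (f := f) (fun z hz => ?_) _ fun u _ => ?_
    · have hz' := (Finset.mem_filter.1 hz).2
      exact Finset.mem_filter.2 ⟨(hf z hz'.1).1, z, hz', (hf z hz'.1).2⟩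
    · rcases (Finset.filter (fun a => f a = u) (univ.filter (· ∈ P ⊓ Cz P))).eq_empty_or_nonempty
        with h0 | ⟨z, hz⟩
      · rw [h0, Finset.card_empty]
        exact Nat.zero_le _
      obtain ⟨hz1, hz2⟩ := Finset.mem_filter.1 hz
      have hz' := (Finset.mem_filter.1 hz1).2
      refine card_le_relIndex_of_conj (z := z) (fun x hx => ?_) _ fun v hv => ?_
      · have : P ⊔ Cz P ≤ Ce z :=
          sup_le (BrPair.le_Ce_iff.2 hz'.2) fun x hx => BrPair.mem_Ce.2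
            (by rw [← BrPair.mem_Cz.1 hx z hz'.1, mul_inv_cancel_right])
        exact BrPair.mem_Ce.1 (this hx)
      · obtain ⟨hv1, hv2⟩ := Finset.mem_filter.1 hv
        have hv' := (Finset.mem_filter.1 hv1).2
        have h4 := (hf v hv'.1).2
        rw [hv2, ← hz2] at h4
        exact exists_stN_of_fus h ((hf z hz'.1).2.trans h (h4.symm h)) hz'.2 hv'.2
  calc _ ≤ (P ⊔ Cz P).relIndex (stN ⊤ P e) * R'.card * p ^ ht := Nat.mul_le_mul_right _ h2
    _ ≤ _ := by rw [mul_assoc]; exact Nat.mul_le_mul_left _ h1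

theorem card_center_eq (P : Subgroup G) :
    Nat.card (Subgroup.center P) = Nat.card (P ⊓ Cz P : Subgroup G) := by
  rw [← Subgroup.card_map_of_injective P.subtype_injective]
  congr 2
  ext x
  constructor
  · rintro ⟨y, hy, rfl⟩
    exact ⟨y.2, BrPair.mem_Cz.2 fun u hu =>
      congrArg Subtype.val (Subgroup.mem_center_iff.1 hy ⟨u, hu⟩)⟩
  · rintro ⟨hx, hx'⟩
    exact ⟨⟨x, hx⟩, Subgroup.mem_center_iff.2 fun u => Subtype.ext (BrPair.mem_Cz.1 hx' u u.2), rfl⟩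

theorem maxPair_of_induced (hM : IsPModular p M) {P : Subgroup G}
    {b : Set (IrrCharacter (P ⊔ Cz P : Subgroup G))} {B : Set (IrrCharacter G)}
    (hP : IsDefectGroup p M B P) (hind : IsInducedBlock M (P ⊔ Cz P) b B) :
    MaxPair p ⊤ ⊤ (eB hM B) P (sB hM (P ⊔ Cz P) b) := by
  have hD := (BrPair.isDefectGroup_iff hM hind.2.1).1 hP
  exact ⟨le_rfl, BrPair.top_le_Nz_top, BrPair.isBlk_eB hM hind.2.1, ⟨le_top, hD.pgroup,
    isBlk_Cz_of_sup hD.pgroup (BrPair.isBlk_sB hM hind.1), (isInducedBlock_iff_br_mul_emb hM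
      hD.pgroup le_sup_left le_sup_right (sup_Cz_le_Nz P) hind.1 hind.2.1).1 hind⟩, hD⟩

end CfsgLib.Cover
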