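import Mathlib
import Cfsg.Agent.Lib.PLocal.PSolvable
import Cfsg.Agent.Lib.Fusion.SylIn
import Cfsg.Agent.Lib.Coprime.Hall
import Cfsg.Agent.Lib.Coprime.Action

/-! Group-theoretic facts on `p`-solvable groups with central `p'`-core. -/

set_option autoImplicit false
set_option linter.unusedSectionVars false

namespace CfsgLib.Cover

open Cfsg CfsgLib.Fusion Subgroup
open scoped Pointwise

variable {G : Type*} [Group G] [Finite G] {p : ℕ} [hp : Fact p.Prime]

theorem dvd_orderOf_map_iff {H : Type*} [Group H] (f : G →* H) (hk : (Nat.card f.ker).Coprime p)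
    (x : G) : p ∣ orderOf (f x) ↔ p ∣ orderOf x := by
  refine ⟨fun h => h.trans (orderOf_map_dvd f x), fun h => ?_⟩
  have h1 : x ^ orderOf (f x) ∈ f.ker := by rw [MonoidHom.mem_ker, map_pow, pow_orderOf_eq_one]
  have h2 : orderOf x ∣ orderOf (f x) * Nat.card f.ker := by
    rw [orderOf_dvd_iff_pow_eq_one, pow_mul]
    exact orderOf_dvd_iff_pow_eq_one.1 (f.ker.orderOf_dvd_natCard h1)
  exact hk.symm.dvd_of_dvd_mul_right (h.trans h2)

theorem pCore_le_map_of_central {H : Type*} [Group H] (f : G →* H) (hf : Function.Surjective f)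
    (hc : f.ker ≤ center G) : pCore p H ≤ (pCore p G).map f := by
  obtain ⟨S, hS⟩ := exists_sylIn p ((pCore p H).comap f)
  have h1 := hS.map f
  rw [map_comap_eq_self_of_surjective hf] at h1
  have h2 := h1.eq_of_isPGroup PLocal.PSolv.isPGroup_pCore
  have h3 : (pCore p H).comap f ≤ normalizer (S : Set G) := by
    rw [← h2, comap_map_eq]
    exact sup_le le_normalizer (hc.trans (center_le_normalizer _))
  have h4 : S.Normal := by
    rw [← normalizer_eq_top_iff, eq_top_iff]
    intro g _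
    obtain ⟨n, hn, h⟩ := hS.frattini (g := g) (by rw [normalizer_eq_top]; trivial)
    exact (mul_mem_cancel_left (h3 hn)).1 h
  rw [← h2]
  exact map_mono (PLocal.PSolv.le_pCore h4 hS.isPGroup)

theorem pPrimeCore_eq_top_of_central (hG : IsPSolvable p G) (hc : pPrimeCore p G ≤ center G)
    (h : pCore p G = ⊥) : pPrimeCore p G = ⊤ := by
  have h1 := pCore_le_map_of_central (p := p) (QuotientGroup.mk' (pPrimeCore p G))
    (QuotientGroup.mk'_surjective _) (by rwa [QuotientGroup.ker_mk'])
  rw [h, Subgroup.map_bot, le_bot_iff] at h1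
  rcases subsingleton_or_nontrivial (G ⧸ pPrimeCore p G) with h2 | h2
  · exact QuotientGroup.subsingleton_iff.1 h2
  · exact ((PLocal.PSolv.pCore_ne_bot_or (PLocal.PSolv.quotient hG _)).elim (· h1)
      (· PLocal.PSolv.pPrimeCore_quotient)).elim

theorem exists_proper_supplement (hG : IsPSolvable p G) (hc : pPrimeCore p G ≤ center G)
    (h : pCore p G ≠ ⊥) : ∃ H : Subgroup G, H ≠ ⊤ ∧ pPrimeCore p G ≤ H ∧ pCore p G ⊔ H = ⊤ := by
  set Q := pCore p G with hQ
  have hQp : IsPGroup p Q := PLocal.PSolv.isPGroup_pCore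
  set π := QuotientGroup.mk' Q
  set L := (pPrimeCore p (G ⧸ Q)).comap π with hL
  have hQL : Q ≤ L := (QuotientGroup.ker_mk' Q).symm.le.trans (ker_le_comap π _)
  have hrel : (Q.relIndex L).Coprime p := by
    rw [hL, Coprime.card_comap_quotient]
    exact PLocal.PSolv.coprime_card_pPrimeCore
  obtain ⟨n, hn⟩ := hQp.exists_card_eq
  obtain ⟨Y, hYL, -, hQY, hY⟩ := Coprime.exists_complement_of_le_normalizer hQL
    (by rw [normalizer_eq_top]; exact le_top) (hn ▸ (hrel.symm.pow_left n))
  have hYp : (Nat.card Y).Coprime p := hY ▸ hrel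
  by_cases hH : normalizer (Y : Set G) = ⊤
  · have hYN : Y ≤ pPrimeCore p G := PLocal.PSolv.le_pPrimeCore (normalizer_eq_top_iff.1 hH) hYp
    have h1 : pPrimeCore p (G ⧸ Q) = ⊤ := by
      refine pPrimeCore_eq_top_of_central (PLocal.PSolv.quotient hG _) ?_ PLocal.PSolv.pCore_quotient
      rw [← map_comap_eq_self_of_surjective (QuotientGroup.mk'_surjective Q) (pPrimeCore p _), ← hL,
        ← hQY, Subgroup.map_sup, QuotientGroup.map_mk'_self, bot_sup_eq]
      rintro _ ⟨y, hy, rfl⟩
      rw [mem_center_iff]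
      intro g
      obtain ⟨g, rfl⟩ := QuotientGroup.mk'_surjective Q g
      rw [← map_mul, ← map_mul, mem_center_iff.1 (hc (hYN hy))]
    rw [h1, comap_top] at hL
    refine ⟨pPrimeCore p G, fun h2 => h ?_, le_rfl, ?_⟩
    · have := PLocal.PSolv.disjoint_of_isPGroup_of_coprime hQp
        (PLocal.PSolv.coprime_card_pPrimeCore (p := p) (G := G))
      rwa [h2, disjoint_top] at this
    · rw [eq_top_iff, ← hL, ← hQY]
      exact sup_le_sup_left hYN _
  · refine ⟨_, hH, hc.trans (center_le_normalizer _), eq_top_iff.2 fun g _ => ?_⟩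
    obtain ⟨k, hk, h1⟩ := Coprime.exists_conj_smul_eq_of_le_sup (K := Q)
      (A := MulAut.conj g • Y) (S := Y) (by rw [normalizer_eq_top]; exact le_top)
      (by
        rw [hQY, Coprime.conj_smul_le_iff]
        exact fun x hx => Normal.conj_mem inferInstance x (hYL hx) g)
      (by rw [Coprime.card_conj_smul, hn]; exact hYp.pow_right n)
      (Or.inr (Coprime.isSolvable_of_isPGroup hQp)) (by rw [Coprime.card_conj_smul])
    rw [← mul_smul, ← map_mul, ← Coprime.mem_normalizer_iff_conj_smul_eq] at h1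
    have := mul_mem_sup (inv_mem hk) h1
    rwa [inv_mul_cancel_left] at this

theorem exists_conj_mem_of_sup_eq_top {Q H : Subgroup G} [Q.Normal] (hQ : IsPGroup p Q)
    (h : Q ⊔ H = ⊤) {x : G} (hx : ¬ p ∣ orderOf x) : ∃ k : G, k * x * k⁻¹ ∈ H := by
  obtain ⟨n, hn⟩ := hQ.exists_card_eq
  obtain ⟨k, -, h1⟩ := Coprime.exists_conj_smul_le_of_le_sup (K := Q) (A := zpowers x) (S := H)
    (by rw [normalizer_eq_top]; exact le_top) (h ▸ le_top)
    (by rw [Nat.card_zpowers, hn]; exact ((hp.out.coprime_iff_not_dvd.2 hx).symm).pow_right n)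
    (Or.inr (Coprime.isSolvable_of_isPGroup hQ))
  exact ⟨k, Coprime.conj_smul_le_iff.1 h1 x (mem_zpowers x)⟩

end CfsgLib.Cover
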