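import Mathlib
import Cfsg.Prelude.Def_Blocks
import Cfsg.Agent.Lib.Cover.Fong
import Cfsg.Agent.Lib.Cover.Twist
import Cfsg.Agent.Lib.Char.Clifford
import Cfsg.Agent.Lib.Char.Monomial

/-!
# Blocks with normal defect group; Reynolds' theorem
-/

set_option autoImplicit false
set_option linter.unusedSectionVars false

namespace CfsgLib.Cover

attribute [local implicit_reducible] CfsgLib.Block.K

open Cfsg MonoidAlgebra CfsgLib.Char CfsgLib.Fusion CfsgLib.Block Finset
open CfsgLib.BrPair (cS Cz Nz Ce br trunc res emb Fixed Supp IsDef InI csum fixSub IsPrim cj)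

variable {G : Type*} [Group G] [Finite G] {p : ℕ} {M : Ideal AlgInt}

section
variable (N : Subgroup G) [hN : N.Normal]

theorem conjIrr_mul_apply_of_mem (θ : IrrCharacter N) (x : N) (g : G) {t : G}
    (ht : t ∈ Ce (x : G) ⊔ N) :
    (conjIrr N (g * t) θ : N → ℂ) x = (conjIrr N g θ : N → ℂ) x := by
  have ht' : t ∈ ((N ⊔ Ce (x : G) : Subgroup G) : Set G) := by
    rw [sup_comm]; exact ht
  rw [Subgroup.normal_mul] at ht'
  obtain ⟨n, hn, c, hc, hnc⟩ := ht'
  rw [← hnc]
  simp only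
  rw [← mul_assoc, ← conjIrr_conjIrr, ← conjIrr_conjIrr, conjIrr_of_mem N hn, conjIrr_apply]
  exact congrArg _ (Subtype.ext (BrPair.mem_Ce.1 hc))

theorem centralChar_conjIrr_mul_of_mem (θ : IrrCharacter N) (x : N) (g : G) {t : G}
    (ht : t ∈ Ce (x : G) ⊔ N) :
    centralChar (conjIrr N (g * t) θ : N → ℂ) x = centralChar (conjIrr N g θ : N → ℂ) x := by
  rw [centralChar, centralChar, conjIrr_mul_apply_of_mem N θ x g ht, conjIrr_apply_one,
    conjIrr_apply_one]

theorem cS_normal (g : G) : cS g N = N := BrPair.mem_Nz_iff_cS.1 (top_le_Nz N trivial)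

/-- A `p`-subgroup stabilizing the block of `η` fixes one of the `N`-classes in a `G`-class on
which the induced central character of `η` is a unit. -/
theorem exists_le_of_not_li_induced (hM : IsPModular p M) {η : IrrCharacter N} {y : N}
    (hy : ¬ MemLocalIdeal M (inducedCentralChar N (η : N → ℂ) y)) {S : Subgroup G}
    (hS : IsPGroup p S) (hinv : ∀ s ∈ S, SameBlock M (η : N → ℂ) (conjIrr N s η : N → ℂ)) :
    ∃ g : G, S ≤ Ce (g * y * g⁻¹) ⊔ N ∧
      ¬ MemLocalIdeal M (centralChar (conjIrr N g η : N → ℂ) y) := by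
  classical
  haveI : Fact p.Prime := ⟨hM.1⟩
  haveI := Fintype.ofFinite (G ⧸ (Ce (y : G) ⊔ N))
  rw [← red_eq_zero_iff hM (lr_inducedCentralChar hM N η.2 _), inducedCentralChar_eq_sum_quotient,
    red_sum hM fun q _ => lr_centralChar hM (conjIrr N _ η).2 _] at hy
  obtain ⟨q, -, hq, h0⟩ := BrPair.exists_fixed_of_sum_ne_zero hS
    (fun v : K hM => by rw [nsmul_eq_mul, CharP.cast_eq_zero, zero_mul]) univ
    (fun _ _ _ => mem_univ _) _ (fun s q _ => by
      obtain ⟨t, ht⟩ := QuotientGroup.mk_out_eq_mul (Ce (y : G) ⊔ N) ((s : G) * q.out)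
      have h1 : s • q = (((s : G) * q.out : G) : G ⧸ (Ce (y : G) ⊔ N)) :=
        (MulAction.Quotient.mk_smul_out _ (s : G) q).symm
      rw [h1, ht, centralChar_conjIrr_mul_of_mem N _ _ _ t.2, ← conjIrr_conjIrr, eq_comm,
        red_eq_iff hM (lr_centralChar hM (conjIrr N _ _).2 _) (lr_centralChar hM (conjIrr N _ _).2 _)]
      exact sameBlock_conjIrr N _ (hinv s s.2) y) hy
  refine ⟨q.out, fun s hs => ?_, fun h => h0 (red_eq_zero_of_li hM h)⟩
  have h1 : (((s : G) * q.out : G) : G ⧸ (Ce (y : G) ⊔ N)) = (q.out : G) :=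
    (MulAction.Quotient.mk_smul_out _ s q).trans ((hq ⟨s, hs⟩).trans (QuotientGroup.out_eq' q).symm)
  rw [eq_comm, QuotientGroup.eq, ← mul_assoc, ← BrPair.mem_cS, BrPair.cS_sup, BrPair.cS_Ce,
    cS_normal] at h1
  exact h1

/-- If `B` has a normal defect group `P` and `P C(P) ≤ N`, then a `p`-subgroup stabilizing a block
of `N` covered by `B` lies in `N`. -/
theorem le_of_stabilizes_of_normal_defect (hM : IsPModular p M) {B : Set (IrrCharacter G)}
    (hB : IsPBlock M B) {P : Subgroup G} [P.Normal] (hP : IsDefectGroup p M B P) (hPN : P ≤ N)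
    (hCN : Cz P ≤ N) {χ : IrrCharacter G} (hχ : χ ∈ B) {η : IrrCharacter N}
    (h : Agree N M (χ : G → ℂ) (η : N → ℂ)) {S : Subgroup G} (hS : IsPGroup p S)
    (hinv : ∀ s ∈ S, SameBlock M (η : N → ℂ) (conjIrr N s η : N → ℂ)) : S ≤ N := by
  haveI : Fact p.Prime := ⟨hM.1⟩
  obtain ⟨y, hy, hs⟩ := exists_isDefectClass_sylIn hP
  have hyN : y ∈ N := hCN (BrPair.le_Ce_iff.1 hs.le)
  obtain ⟨g, hg, -⟩ := exists_le_of_not_li_induced N hM (η := η) (y := ⟨y, hyN⟩)
    (not_li_of_li_sub hM (li_sub_comm (h ⟨y, hyN⟩)) (hy.2.2 χ hχ)) hS hinv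
  have h1 : SylIn p (cS g P) (cS g (Ce y)) := hs.map_conj g
  rw [cS_normal, BrPair.cS_Ce] at h1
  have h2 := h1.map (QuotientGroup.mk' N)
  have hb : ∀ U : Subgroup G, U.map (QuotientGroup.mk' N) = ⊥ ↔ U ≤ N := fun U => by
    rw [Subgroup.map_eq_bot_iff, QuotientGroup.ker_mk']
  rw [(hb P).2 hPN] at h2
  refine (hb S).1 (h2.eq_of_le (hS.map _) bot_le ?_)
  refine (Subgroup.map_mono hg).trans ?_
  rw [Subgroup.map_sup, (hb N).2 le_rfl, sup_bot_eq]

theorem not_dvd_relIndex_of_normal_defect (hM : IsPModular p M) {B : Set (IrrCharacter G)}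
    (hB : IsPBlock M B) {P : Subgroup G} [P.Normal] (hP : IsDefectGroup p M B P) (hPN : P ≤ N)
    (hCN : Cz P ≤ N) {χ : IrrCharacter G} (hχ : χ ∈ B) {η : IrrCharacter N}
    (h : Agree N M (χ : G → ℂ) (η : N → ℂ)) {T : Subgroup G} (hNT : N ≤ T)
    (hinv : ∀ s ∈ T, SameBlock M (η : N → ℂ) (conjIrr N s η : N → ℂ)) : ¬ p ∣ N.relIndex T := by
  haveI : Fact p.Prime := ⟨hM.1⟩
  obtain ⟨S, hS⟩ := exists_sylIn p T
  have h1 := le_of_stabilizes_of_normal_defect N hM hB hP hPN hCN hχ h hS.isPGroup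
    fun s hs => hinv s (hS.le hs)
  refine fun hd => hS.not_dvd_relIndex ?_
  rw [← Subgroup.relIndex_mul_relIndex S N T h1 hNT]
  exact hd.mul_left _

end

theorem subgroupOf_sup_Cz_eq_top (P : Subgroup G) :
    P.subgroupOf (P ⊔ Cz P) ⊔ Cz (P.subgroupOf (P ⊔ Cz P)) = ⊤ := by
  apply Subgroup.map_injective (P ⊔ Cz P).subtype_injective
  rw [Subgroup.map_sup, BrPair.map_Cz (P ⊔ Cz P).subtype_injective,
    Subgroup.map_subgroupOf_eq_of_le le_sup_left, Subgroup.range_subtype,
    inf_eq_right.2 le_sup_right, ← MonoidHom.range_eq_map, Subgroup.range_subtype]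

/-- For every irreducible character `ζ` of a normal defect group `P` of `B` there is a member of
`B` whose height is at least the `p`-adic valuation of `ζ(1)`. -/
theorem exists_height_ge_of_normal_defect (hM : IsPModular p M) {B : Set (IrrCharacter G)}
    (hB : IsPBlock M B) {P : Subgroup G} [P.Normal] (hP : IsDefectGroup p M B P)
    (ζ : IrrCharacter (P.subgroupOf (P ⊔ Cz P))) :
    ∃ χ ∈ B, (charDegree (ζ : P.subgroupOf (P ⊔ Cz P) → ℂ)).factorization p ≤
      blockHeight p B (χ : G → ℂ) := by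
  classical
  haveI := Fintype.ofFinite G
  have hp := hM.1
  have hPp := isPGroup_of_isDefectGroup hP
  revert ζ
  set L := P ⊔ Cz P with hL
  intro ζ
  obtain ⟨b, hb⟩ := exists_isInducedBlock_of_br_ne_zero hM hPp (H := L) le_sup_left le_sup_right
    (sup_Cz_le_Nz P) hB (br_eB_ne_zero_of_isDefectGroup hM hB hP)
  have hbD := isDefectGroup_of_isInducedBlock hM le_sup_left (sup_Cz_le_Nz P) hb hP
  have hG := subgroupOf_sup_Cz_eq_top P
  have hP' := isPGroup_of_isDefectGroup hbD
  obtain ⟨θ, hθ, hker⟩ := exists_mem_ker_of_isPGroup hM (P.subgroupOf L) hP' hb.1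
  set η := twistIrr hM hb.1 hG hbD hθ hker ζ with hη
  have hηb : η ∈ b := twistIrr_mem hM hb.1 hG hbD hθ hker ζ
  obtain ⟨χ, hχη⟩ := exists_over L η
  have hχ : χ ∈ B := by
    rw [isInducedBlock_unique hM hb (isInducedBlock_of_covers hM hPp le_sup_right hb.1
      (isPBlock_blockOf χ) ⟨χ, mem_blockOf_self hM χ, η, hηb, hχη⟩)]
    exact mem_blockOf_self hM χ
  refine ⟨χ, hχ, ?_⟩
  have h1 := clifford_degree L χ.2 η.2 hχη
  obtain ⟨e, he⟩ := exists_classInner_eq_nat (isCharacter_restrict L (irr_isCharacter χ))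
    (irr_isCharacter η)
  have he0 : e ≠ 0 := by
    rintro rfl
    exact hχη (by rw [he, Nat.cast_zero])
  rw [he, hη, twistIrr_coe, twist_one hp hP', ← twistIrr_coe hM hb.1 hG hbD hθ hker, ← hη,
    ← charDegree_eq (irr_isCharacter χ), ← charDegree_eq (irr_isCharacter ζ),
    ← charDegree_eq (irr_isCharacter θ)] at h1
  have h2 : charDegree (χ : G → ℂ) = e * (inertia L (η : L → ℂ)).index *
      (charDegree (ζ : P.subgroupOf L → ℂ) * charDegree (θ : L → ℂ)) := by exact_mod_cast h1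
  have h3 := factorization_charDegree_eq_add hM hB hP hχ
  have h4 := (factorization_charDegree_of_ker hM hb.1 hbD hθ hker).1
  have hLI : L ≤ inertia L (η : L → ℂ) := le_inertia L (irr_isClassFunction η)
  have h5 := not_dvd_relIndex_of_normal_defect L hM hB hP le_sup_left le_sup_right hχ
    (agree_of_over L hM hχη) hLI (fun s hs => by
      have : (conjIrr L s η : L → ℂ) = η := hs
      rw [this]
      exact sameBlock_refl hM _)
  have h6 := Subgroup.relIndex_mul_index hLI
  have h7 : P.relIndex L * L.index = P.index := Subgroup.relIndex_mul_index le_sup_left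
  have hi : ∀ U : Subgroup G, U.index ≠ 0 := fun U => Subgroup.FiniteIndex.index_ne_zero
  have h8 := congrArg (fun n => n.factorization p) h6
  have h9 := congrArg (fun n => n.factorization p) h7
  have h10 := congrArg (fun n => n.factorization p) h2
  rw [Nat.factorization_mul (left_ne_zero_of_mul (h6 ▸ hi _)) (hi _), Finsupp.add_apply,
    Nat.factorization_eq_zero_of_not_dvd h5] at h8
  rw [Nat.factorization_mul (left_ne_zero_of_mul (h7 ▸ hi _)) (hi _), Finsupp.add_apply] at h9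
  rw [Nat.factorization_mul (mul_ne_zero he0 (hi _))
    (mul_ne_zero (charDegree_ne_zero ζ.2) (charDegree_ne_zero θ.2)),
    Nat.factorization_mul he0 (hi _),
    Nat.factorization_mul (charDegree_ne_zero ζ.2) (charDegree_ne_zero θ.2)] at h10
  simp only [Finsupp.add_apply] at h10
  have h11 : (P.subgroupOf L).index = P.relIndex L := rfl
  rw [h11] at h4
  omega

/-- Reynolds' theorem. -/
theorem reynolds (hM : IsPModular p M) {B : Set (IrrCharacter G)}
    (hB : IsPBlock M B) {P : Subgroup G} [P.Normal] (hP : IsDefectGroup p M B P) :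
    (∀ a ∈ P, ∀ c ∈ P, a * c = c * a) ↔ ∀ χ ∈ B, blockHeight p B (χ : G → ℂ) = 0 := by
  have hp := hM.1
  constructor
  · intro hc χ hχ
    have h1 := factorization_charDegree_eq_add hM hB hP hχ
    have h2 := ito_degree χ.2 P hc (charDegree_eq (irr_isCharacter χ)).symm
    have h3 := (Nat.factorization_le_iff_dvd (charDegree_ne_zero χ.2)
      Subgroup.FiniteIndex.index_ne_zero).2 h2 p
    omega
  · intro h a ha c hc
    haveI : Fact p.Prime := ⟨hp⟩
    have hP' : IsPGroup p (P.subgroupOf (P ⊔ Cz P)) :=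
      (isPGroup_of_isDefectGroup hP).comap_of_injective _ (Subgroup.subtype_injective _)
    have h1 := (comm_iff_forall_irr_one (G := P.subgroupOf (P ⊔ Cz P))).2 (fun ζ hζ => by
      obtain ⟨χ, hχ, h2⟩ := exists_height_ge_of_normal_defect hM hB hP ⟨ζ, hζ⟩
      rw [h χ hχ] at h2
      obtain ⟨n, hn⟩ := hP'.exists_card_eq
      obtain ⟨k, -, hk⟩ := (Nat.dvd_prime_pow hp).1 (hn ▸ charDegree_dvd_card hζ)
      rw [show ((⟨ζ, hζ⟩ : IrrCharacter _) : _ → ℂ) = ζ from rfl, hk, hp.factorization_pow,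
        Finsupp.single_eq_same, Nat.le_zero] at h2
      rw [← charDegree_eq (isCharacter_of_isIrr hζ), hk, h2]
      simp)
    have h2 := h1 ⟨⟨a, Subgroup.mem_sup_left ha⟩, ha⟩ ⟨⟨c, Subgroup.mem_sup_left hc⟩, hc⟩
    exact congrArg (fun x : P.subgroupOf (P ⊔ Cz P) => ((x : (P ⊔ Cz P : Subgroup G)) : G)) h2

end CfsgLib.Cover
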