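import Mathlib
import Cfsg.Agent.Lib.Cover.FongP
import Cfsg.Agent.Lib.Cover.FongReynolds
import Cfsg.Agent.Lib.Cover.PSolvGrp
import Cfsg.Agent.Lib.Triple.Cover
import Cfsg.Agent.Lib.ChDeg.Cliff
import Cfsg.Agent.Lib.Blk.Reg

/-! Fong reductions for restrictions of characters to `p`-regular elements. -/

set_option autoImplicit false
set_option linter.unusedSectionVars false

namespace CfsgLib.Cover

open Cfsg CfsgLib.Char CfsgLib.Block CfsgLib.Blk Finset
open scoped ComplexConjugate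

universe u

/-- `χ` agrees on `p`-regular elements with a character containing `O_p(G)` in its kernel. -/
def Lifts (p : ℕ) {G : Type*} [Group G] (χ : G → ℂ) : Prop :=
  ∃ Ψ : G → ℂ, IsCharacter G Ψ ∧ (∀ q ∈ pCore p G, Ψ q = Ψ 1) ∧
    pRegularPart p Ψ = pRegularPart p χ

/-- The irreducible characters lying over `θ` along `ι`. -/
def ov {G L : Type*} [Group G] [Group L] [Fintype L] (ι : L →* G) (θ : L → ℂ) :
    Set (IrrCharacter G) := {χ | classInner (fun n : L => (χ : G → ℂ) (ι n)) θ ≠ 0}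

/-- Reduction data. -/
structure Red (p : ℕ) {G K : Type*} [Group G] [Fintype G] [Group K] [Fintype K]
    (A : Set (IrrCharacter G)) (σ : IrrCharacter G → IrrCharacter K) (c : ℂ) : Prop where
  deg : ∀ χ ∈ A, (χ : G → ℂ) 1 = c * (σ χ : K → ℂ) 1
  mm : ∀ χ ∈ A, ∀ ψ ∈ A, mm p (χ : G → ℂ) ψ = mm p (σ χ : K → ℂ) (σ ψ)
  inj : Set.InjOn σ A
  lifts : ∀ χ ∈ A, Lifts p (σ χ : K → ℂ) → Lifts p (χ : G → ℂ)

variable {p : ℕ} {M : Ideal AlgInt}

theorem Red.comp {G K L : Type*} [Group G] [Fintype G] [Group K] [Fintype K] [Group L] [Fintype L]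
    {A : Set (IrrCharacter G)} {B : Set (IrrCharacter K)} {σ : IrrCharacter G → IrrCharacter K}
    {τ : IrrCharacter K → IrrCharacter L} {c d : ℂ} (h : Red p A σ c) (h' : Red p B τ d)
    (hAB : Set.MapsTo σ A B) : Red p A (τ ∘ σ) (c * d) where
  deg χ hχ := by rw [h.deg χ hχ, h'.deg _ (hAB hχ), mul_assoc]; rfl
  mm χ hχ ψ hψ := by rw [h.mm χ hχ ψ hψ, h'.mm _ (hAB hχ) _ (hAB hψ)]; rfl
  inj := h'.inj.comp h.inj hAB
  lifts χ hχ h1 := h.lifts χ hχ (h'.lifts _ (hAB hχ) h1)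

section basic

variable {G : Type*} [Group G] [Fintype G]

theorem reg_indFun (H : Subgroup G) (f : H → ℂ) :
    pRegularPart p (indFun H f) = indFun H (pRegularPart p f) := by
  rw [pRegularPart_eq_mul, mul_comm, ← indFun_mul_res H f (f := regInd p G)
    (isClassFunction_pRegularPart (isClassFunction_const 1))]
  congr 1
  funext h
  rw [pRegularPart_eq_mul (f := f), mul_comm]
  exact congrArg (· * f h) (congrFun (pRegularPart_restrict H fun _ => 1) h)

theorem eq_of_reg_eq {f f' : G → ℂ} (h : pRegularPart p f = pRegularPart p f') {g : G}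
    (hg : ¬ p ∣ orderOf g) : f g = f' g := by
  rw [← pRegularPart_of_reg (f := f) hg, h, pRegularPart_of_reg hg]

theorem reg_ext {f f' : G → ℂ} (h : ∀ g, ¬ p ∣ orderOf g → f g = f' g) :
    pRegularPart p f = pRegularPart p f' := by
  funext g
  by_cases hg : p ∣ orderOf g
  · rw [pRegularPart_of_sing hg, pRegularPart_of_sing hg]
  · rw [pRegularPart_of_reg hg, pRegularPart_of_reg hg, h g hg]

theorem mm_eq_zero_of_ov (hM : IsPModular p M) {L : Type*} [Group L] [Fintype L] {ι : L →* G}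
    (hι : Function.Injective ι) (hn : ι.range.Normal) (hL : (Nat.card L).Coprime p)
    (θ : IrrCharacter L) {χ ψ : IrrCharacter G} (hχ : χ ∈ ov ι θ) (hψ : ψ ∉ ov ι θ) :
    mm p (χ : G → ℂ) ψ = 0 := by
  haveI : Fact p.Prime := ⟨hM.1⟩
  refine mm_eq_zero hM (isPBlock_blockOf χ) (mem_blockOf_self hM χ) fun h => hψ ?_
  obtain ⟨_, rfl, h1⟩ := exists_under_of_covers_hom hM hι hn (isPBlock_blockOf χ)
    (isPBlock_singleton_of_coprime hM hL θ) ⟨χ, mem_blockOf_self hM χ, θ, rfl, hχ⟩ h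
  exact h1

theorem red_inertia (hM : IsPModular p M) (N : Subgroup G) [N.Normal] [Fintype N]
    (hN : (Nat.card N).Coprime p) (θ : IrrCharacter N) (T : Subgroup G) [Fintype T]
    (hT : T = inertia N (θ : N → ℂ)) (hNT : N ≤ T) :
    ∃ σ : IrrCharacter G → IrrCharacter T, Red p (ov N.subtype θ) σ T.index ∧
      Set.MapsTo σ (ov N.subtype θ) (ov (Subgroup.inclusion hNT) θ) := by
  classical
  haveI : Fact p.Prime := ⟨hM.1⟩
  have key : ∀ χ : IrrCharacter G, ∃ ψ : IrrCharacter T, χ ∈ ov N.subtype θ →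
      indFun T (ψ : T → ℂ) = χ ∧ ψ ∈ ov (Subgroup.inclusion hNT) θ := fun χ => by
    by_cases h : χ ∈ ov N.subtype θ
    · obtain ⟨ψ, hψ, h1, h2⟩ := clifford_corr N T hNT θ.2 hT χ.2 h
      exact ⟨⟨ψ, hψ⟩, fun _ => ⟨h1, h2.trans_ne h⟩⟩
    · exact ⟨irrOne T, fun h' => absurd h' h⟩
  choose σ hσ using key
  refine ⟨σ, ⟨fun χ hχ => ?_, fun χ hχ ψ hψ => ?_, fun χ hχ ψ hψ h => ?_, fun χ hχ h => ?_⟩,
    fun χ hχ => (hσ χ hχ).2⟩
  · rw [← (hσ χ hχ).1, indFun_one]
  · rw [mm, ← (hσ χ hχ).1, reg_indFun, classInner_indFun_left _ _ (irr_isClassFunction ψ),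
      classInner_eq_sum_irr (isClassFunction_pRegularPart (irr_isClassFunction _)),
      Finset.sum_eq_single (σ ψ)]
    · rw [← classInner_indFun_right _ _ (irr_isClassFunction ψ), (hσ ψ hψ).1,
        classInner_irr_self ψ.2, map_one, mul_one, mm]
    · intro η _ hη
      by_cases h1 : η ∈ ov (Subgroup.inclusion hNT) θ
      · rw [mul_eq_zero, map_eq_zero]
        refine Or.inr (by_contra fun h2 => hη (Subtype.ext ?_))
        exact clifford_corr_inj N T hNT θ.2 hT η.2 (σ ψ).2 h1 (hσ ψ hψ).2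
          ((clifford_corr_key N T hNT θ.2 hT η.2 h1 ψ.2 h2).1.trans (hσ ψ hψ).1.symm)
      · exact mul_eq_zero_of_left (mm_eq_zero_of_ov hM (Subgroup.inclusion_injective hNT)
          (range_inclusion_normal hNT (le_top.trans (top_le_Nz N))) hN θ (hσ χ hχ).2 h1) _
    · exact fun h => absurd (Finset.mem_univ _) h
  · exact Subtype.ext ((hσ χ hχ).1.symm.trans (h ▸ (hσ ψ hψ).1))
  · obtain ⟨Ψ, hΨ, h1, h2⟩ := h
    refine ⟨indFun T Ψ, isCharacter_indFun T hΨ, fun q hq => ?_, ?_⟩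
    · have hQT : pCore p G ≤ T := fun y hy => by
        rw [hT, mem_inertia']
        intro n
        refine congrArg _ (Subtype.ext ?_)
        have := Subgroup.commute_of_normal_of_disjoint _ _ inferInstance inferInstance
          (PLocal.PSolv.disjoint_of_isPGroup_of_coprime PLocal.PSolv.isPGroup_pCore hN) y n hy n.2
        change y * n * y⁻¹ = n
        rw [this.eq, mul_inv_cancel_right]
      rw [indFun_apply', indFun_apply']
      congr 1
      refine Finset.sum_congr rfl fun x _ => ?_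
      have h3 : x * q * x⁻¹ ∈ pCore p G := Subgroup.Normal.conj_mem inferInstance q hq x
      rw [mul_one, mul_inv_cancel, extendByZero_one, extendByZero_of_mem _ _ (hQT h3)]
      exact h1 _ (PLocal.PSolv.pCore_subgroupOf_le T h3)
    · rw [reg_indFun, h2, ← reg_indFun, (hσ χ hχ).1]

end basic

section triple

variable {G : Type u} [Group G] [Fintype G] [hp : Fact p.Prime]

theorem exists_cover_pCore (N : Subgroup G) [N.Normal] (hN : (Nat.card N).Coprime p)
    (θ : IrrCharacter N) (hinv : inertia N (θ : N → ℂ) = ⊤) :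
    ∃ (Γ : Type u) (_ : Group Γ) (_ : Finite Γ) (c : Triple.Cover N (θ : N → ℂ) Γ),
      (Nat.card c.π.ker).Coprime p ∧ ∀ x ∈ pCore p Γ, c.E x = c.E 1 := by
  obtain ⟨Γ, _, _, c, -, hc⟩ := Triple.exists_cover N θ.2 ((ChDeg.inv_cj_iff N _).2 hinv)
    (ChDeg.irr_deg_cast θ).symm
  have hd : (charDegree (θ : N → ℂ)).Coprime p := hN.coprime_dvd_left (ChDeg.deg_dvd_card θ.2)
  have hk : (Nat.card c.π.ker).Coprime p :=
    Nat.Coprime.coprime_dvd_left hc
      (Nat.Coprime.mul_left (hN.coprime_dvd_left (Triple.detOrder_dvd_card _)) hd)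
  have hE := isCharacter_of_isIrr c.irr
  have hcard : Nat.card c.ι.range = Nat.card N :=
    (Nat.card_congr (MonoidHom.ofInjective c.ι_injective).toEquiv).symm
  have hQ : pCore p Γ ≤ charCenter c.E := fun x hx => by
    have h1 : ∀ n : N, c.ι n ∈ Subgroup.centralizer ({x} : Set Γ) := fun n => by
      rw [Subgroup.mem_centralizer_singleton_iff]
      exact (Subgroup.commute_of_normal_of_disjoint _ _ inferInstance inferInstance
        (PLocal.PSolv.disjoint_of_isPGroup_of_coprime PLocal.PSolv.isPGroup_pCore (hcard ▸ hN))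
        x _ hx (show c.ι n ∈ c.ι.range from ⟨n, rfl⟩)).symm.eq
    have h2 := CharDeep.isIrr_of_comp_isIrr (c.ι.codRestrict _ h1)
      (isCharacter_restrict (Subgroup.centralizer ({x} : Set Γ)) hE)
      (by
        change IsIrrCharacter N (fun n => c.E (c.ι n))
        rw [funext c.E_ι]
        exact θ.2)
    rw [mem_charCenter hE]
    exact norm_irr_of_mem_center h2 (g := ⟨x, Subgroup.mem_centralizer_singleton_iff.2 rfl⟩)
      (Subgroup.mem_center_iff.2 fun y => Subtype.ext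
        (Subgroup.mem_centralizer_singleton_iff.1 y.2))
  obtain ⟨l, hl⟩ := exists_hom_charCenter (irr_one_ne_zero c.irr)
  obtain ⟨a, ha⟩ := (PLocal.PSolv.isPGroup_pCore (p := p) (G := Γ)).exists_card_eq
  have hl' : ∀ x : pCore p Γ, c.E x = c.E 1 * (l.comp (Subgroup.inclusion hQ)) x := fun x => by
    have := hl (Subgroup.inclusion hQ x) 1
    rw [mul_one] at this
    exact this.trans (mul_comm _ _)
  have hpow : ∀ x : pCore p Γ, (l.comp (Subgroup.inclusion hQ)) x ^ p ^ a = 1 := fun x => by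
    rw [← map_pow, ← ha, pow_card_eq_one', map_one]
  obtain ⟨ν, hν⟩ := ChDeg.exists_linear_ext_of_coprime (pCore p Γ).subtype c.irr
    (l.comp (Subgroup.inclusion hQ)) hl' hpow (pow_ne_zero _ hp.out.ne_zero)
    (by rw [ChDeg.deg_congr c.E_one]; exact hd.pow_right a)
  obtain ⟨r, hr1, hr2⟩ := Nat.chineseRemainder
    (show (p ^ a).Coprime (Nat.card N * Nat.card c.π.ker) from
      (Nat.Coprime.mul_left hN hk).symm.pow_left a) 1 0
  have hr3 : Nat.card N * Nat.card c.π.ker ∣ r := (Nat.modEq_zero_iff_dvd).1 hr2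
  have h1 : ∀ n : N, (ν⁻¹ ^ r) (c.ι n) = 1 := fun n => by
    obtain ⟨s, hs⟩ := (Dvd.intro _ rfl).trans hr3
    rw [MonoidHom.pow_apply, ← map_pow, ← map_pow, hs, pow_mul, pow_card_eq_one', one_pow, map_one,
      map_one]
  have h2 : ∀ z : c.π.ker, (ν⁻¹ ^ r) z = 1 := fun z => by
    obtain ⟨s, hs⟩ := (Dvd.intro_left _ rfl).trans hr3
    rw [MonoidHom.pow_apply, ← map_pow, ← Subgroup.coe_pow, hs, pow_mul, pow_card_eq_one', one_pow,
      Subgroup.coe_one, map_one]
  refine ⟨Γ, _, inferInstance,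
    { c with
      E := fun x => (ν⁻¹ ^ r) x * c.E x
      irr := CharDeep.isIrr_linear_mul _ c.irr
      E_ι := fun n => by rw [h1, c.E_ι, Units.val_one, one_mul]
      E_mul := fun z x => by
        rw [map_mul, h2, one_mul, c.E_mul]
        ring }, hk, fun x hx => ?_⟩
  change ((ν⁻¹ ^ r) x : ℂ) * c.E x = (ν⁻¹ ^ r) 1 * c.E 1
  have h3 : ν x ^ r = ν x := by
    have h4 := hν ⟨x, hx⟩
    change ν x = _ at h4
    rw [pow_eq_pow_iff_modEq.2 (hr1.of_dvd (orderOf_dvd_of_pow_eq_one (h4 ▸ hpow ⟨x, hx⟩))),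
      pow_one]
  rw [hl' ⟨x, hx⟩, ← hν, MonoidHom.pow_apply, MonoidHom.inv_apply, inv_pow, h3, map_one]
  simp [mul_comm]

theorem red_triple (hG : IsPSolvable p G) (N : Subgroup G) [N.Normal] [Fintype N]
    (hN : (Nat.card N).Coprime p) (θ : IrrCharacter N) (hinv : inertia N (θ : N → ℂ) = ⊤) :
    ∃ (K : Type u) (_ : Group K) (_ : Fintype K) (Z : Subgroup K), IsPSolvable p K ∧
      Z ≤ Subgroup.center K ∧ (Nat.card Z).Coprime p ∧ Z.index = N.index ∧
      ∃ σ : IrrCharacter G → IrrCharacter K, Red p (ov N.subtype θ) σ ((θ : N → ℂ) 1) := by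
  classical
  obtain ⟨Γ, _, _, c, hk, hQ⟩ := exists_cover_pCore N hN θ hinv
  set q := QuotientGroup.mk' c.ι.range with hq
  have hqs : Function.Surjective q := QuotientGroup.mk'_surjective _
  have hqk : q.ker = c.ι.range := QuotientGroup.ker_mk' _
  have := Fintype.ofFinite (Γ ⧸ c.ι.range)
  have := Fintype.ofFinite q.ker
  let e : N ≃* q.ker := (MonoidHom.ofInjective c.ι_injective).trans (MulEquiv.subgroupCongr hqk.symm)
  have hqp : (Nat.card q.ker).Coprime p := Nat.card_congr e.toEquiv ▸ hN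
  have hE := isCharacter_of_isIrr c.irr
  have hEq : IsIrrCharacter q.ker (fun n => c.E n) :=
    c.isIrr_res θ.2 q.ker.subtype q.ker.subtype_injective (by rw [Subgroup.range_subtype, hqk])
  have hlam : ∀ z : c.π.ker, c.E z = c.lam z * c.E 1 := fun z => by
    rw [← c.E_mul, mul_one]
  have hreg : ∀ x, p ∣ orderOf (q x) ↔ p ∣ orderOf (c.π x) := fun x => by
    rw [dvd_orderOf_map_iff q hqp, dvd_orderOf_map_iff c.π hk]
  have key : ∀ χ : IrrCharacter G, ∃ β : IrrCharacter (Γ ⧸ c.ι.range), χ ∈ ov N.subtype θ →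
      (∀ z : c.π.ker, c.lam z * (β : Γ ⧸ c.ι.range → ℂ) (q z) = (β : Γ ⧸ c.ι.range → ℂ) 1) ∧
      ∀ x, (χ : G → ℂ) (c.π x) = (β : Γ ⧸ c.ι.range → ℂ) (q x) * c.E x := fun χ => by
    by_cases h : χ ∈ ov N.subtype θ
    · obtain ⟨β, hβ, h1⟩ := Triple.span_down c.π q c.surj hqs hE hEq (fun z => c.lam z) hlam χ.2 (by
        rw [← classInner_comp_mulEquiv e]
        have h2 : (fun n => (χ : G → ℂ) (c.π (e n))) = fun n => (χ : G → ℂ) (N.subtype n) :=
          funext fun n => congrArg _ (c.π_ι n)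
        have h3 : (fun n => c.E (e n)) = θ := funext c.E_ι
        rw [h2, h3]
        exact h)
      exact ⟨⟨β, hβ⟩, fun _ => h1⟩
    · exact ⟨irrOne _, fun h' => absurd h' h⟩
  choose σ hσ using key
  refine ⟨Γ ⧸ c.ι.range, inferInstance, inferInstance, c.π.ker.map q,
    PLocal.PSolv.quotient (PLocal.PSolv.of_ker_of_range c.π (PLocal.PSolv.of_coprime hk)
      (PLocal.PSolv.subgroup hG _)) _, ?_, hk.coprime_dvd_left (Subgroup.card_map_dvd _ _), ?_,
    σ, fun χ hχ => ?_, fun χ hχ ψ hψ => ?_, fun χ hχ ψ hψ h => ?_, fun χ hχ h => ?_⟩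
  · rintro _ ⟨z, hz, rfl⟩
    rw [Subgroup.mem_center_iff]
    intro y
    obtain ⟨y, rfl⟩ := hqs y
    rw [← map_mul, ← map_mul, Subgroup.mem_center_iff.1 (c.central hz)]
  · rw [Subgroup.index_map, MonoidHom.range_eq_top.2 hqs, Subgroup.index_top, mul_one, hqk,
      ← c.comap_eq, Subgroup.index_comap_of_surjective _ c.surj]
  · have := (hσ χ hχ).2 1
    rw [map_one, map_one, c.E_one, mul_comm] at this
    exact this
  · refine Triple.classInner_span c.π q c.surj hqs hE hEq (fun x => ?_) (hσ ψ hψ).2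
    by_cases hx : p ∣ orderOf (q x)
    · rw [pRegularPart_of_sing hx, pRegularPart_of_sing ((hreg x).1 hx), zero_mul]
    · rw [pRegularPart_of_reg hx, pRegularPart_of_reg (mt (hreg x).2 hx), (hσ χ hχ).2]
  · refine Subtype.ext (funext fun g => ?_)
    obtain ⟨x, rfl⟩ := c.surj g
    rw [(hσ χ hχ).2, (hσ ψ hψ).2, h]
  · obtain ⟨Ψ, hΨ, h1, h2⟩ := h
    have h0 : ¬ p ∣ orderOf (1 : Γ ⧸ c.ι.range) := by
      rw [orderOf_one]; exact hp.out.not_dvd_one
    obtain ⟨χ', hχ', h3⟩ := Triple.span_up_char c.π q c.surj hE (fun z => c.lam z) hlam hΨ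
      (fun z => by
        rw [eq_of_reg_eq h2 h0, eq_of_reg_eq h2, (hσ χ hχ).1]
        rw [hreg, z.2, orderOf_one]
        exact hp.out.not_dvd_one)
    refine ⟨χ', hχ', fun y hy => ?_, reg_ext fun g hg => ?_⟩
    · obtain ⟨x, hx, rfl⟩ := pCore_le_map_of_central c.π c.surj c.central hy
      rw [← map_one c.π, h3, h3, hQ x hx, map_one,
        h1 _ (PLocal.PSolv.map_pCore_le hqs ⟨x, hx, rfl⟩)]
    · obtain ⟨x, rfl⟩ := c.surj g
      rw [h3, (hσ χ hχ).2, eq_of_reg_eq h2 (mt (hreg x).1 hg)]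

/-- Fong's reduction: the characters over `θ` correspond to characters of a group with a central
`p'`-subgroup of index at most `|G : N|`. -/
theorem exists_red (hM : IsPModular p M) (hG : IsPSolvable p G) (N : Subgroup G) [N.Normal]
    [Fintype N] (hN : (Nat.card N).Coprime p) (θ : IrrCharacter N) :
    ∃ (K : Type u) (_ : Group K) (_ : Fintype K) (Z : Subgroup K), IsPSolvable p K ∧
      Z ≤ Subgroup.center K ∧ (Nat.card Z).Coprime p ∧ Z.index ≤ N.index ∧
      ∃ (σ : IrrCharacter G → IrrCharacter K) (c : ℂ), Red p (ov N.subtype θ) σ c := by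
  set T := inertia N (θ : N → ℂ) with hT
  have := Fintype.ofFinite T
  have hNT : N ≤ T := le_inertia N (irr_isClassFunction θ)
  have := Fintype.ofFinite (N.subgroupOf T)
  obtain ⟨σ, h1, h2⟩ := red_inertia hM N hN θ T hT hNT
  let e := Subgroup.subgroupOfEquivOfLe hNT
  obtain ⟨K, _, _, Z, hK, hZ, hZp, hZi, τ, h3⟩ := red_triple (PLocal.PSolv.subgroup hG T)
    (N.subgroupOf T) (Nat.card_congr e.toEquiv ▸ hN) ⟨_, isIrr_comp_mulEquiv e θ.2⟩
    (eq_top_iff.2 fun t _ => (mem_inertia' _).2 fun n => (mem_inertia' N).1 t.2 (e n))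
  refine ⟨K, _, _, Z, hK, hZ, hZp, hZi ▸ Nat.le_of_dvd
    (Nat.pos_of_ne_zero Subgroup.index_ne_zero_of_finite) (Subgroup.relIndex_dvd_index_of_le hNT),
    _, _, h1.comp h3 fun χ hχ => ?_⟩
  have h4 := h2 hχ
  change classInner _ _ ≠ 0 at h4 ⊢
  rw [← classInner_comp_mulEquiv e] at h4
  exact h4

theorem index_lt_of_lt {H K : Subgroup G} (h : H < K) : K.index < H.index := by
  refine lt_of_le_of_ne (Nat.le_of_dvd (Nat.pos_of_ne_zero Subgroup.index_ne_zero_of_finite)
    (Subgroup.index_dvd_of_le h.le)) fun h1 => h.not_ge ?_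
  have h2 := Subgroup.relIndex_mul_index h.le
  rw [← h1, mul_eq_right₀ Subgroup.index_ne_zero_of_finite] at h2
  exact Subgroup.relIndex_eq_one.1 h2

theorem relIndex_lt_index {Z H : Subgroup G} (h : Z ≤ H) (hH : H ≠ ⊤) : Z.relIndex H < Z.index := by
  rw [← Subgroup.relIndex_mul_index h]
  exact lt_mul_of_one_lt_right (Nat.pos_of_ne_zero Subgroup.index_ne_zero_of_finite)
    (Subgroup.one_lt_index_of_ne_top hH)

/-- In a `p`-solvable group every character agrees on `p`-regular elements with a character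
containing `O_p(G)` in its kernel. -/
theorem lifts_of_isPSolvable (hG : IsPSolvable p G) {χ : G → ℂ} (hχ : IsCharacter G χ) :
    Lifts p χ := by
  obtain ⟨M, hM⟩ := ChDeg.exists_pModular hp.out
  suffices ∀ (n : ℕ) {G : Type u} [Group G] [Fintype G] (Z : Subgroup G), Z.index = n →
      Z ≤ Subgroup.center G → (Nat.card Z).Coprime p → IsPSolvable p G → ∀ χ : G → ℂ,
      IsCharacter G χ → Lifts p χ from this _ ⊥ rfl bot_le (by simp) hG χ hχ
  intro n
  induction n using Nat.strong_induction_on with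
  | _ n ih =>
  intro G _ _ Z hn hZ hZp hG χ hχ
  have hZN : Z ≤ pPrimeCore p G :=
    PLocal.PSolv.le_pPrimeCore ⟨fun z hz g => by
      rwa [Subgroup.mem_center_iff.1 (hZ hz), mul_inv_cancel_right]⟩ hZp
  rcases hZN.eq_or_lt with hN | hN
  · by_cases hQ : pCore p G = ⊥
    · exact ⟨χ, hχ, fun q hq => by rw [hQ, Subgroup.mem_bot] at hq; rw [hq], rfl⟩
    obtain ⟨H, hH, h1, h2⟩ := exists_proper_supplement hG (hN ▸ hZ) hQ
    have := Fintype.ofFinite H
    obtain ⟨Ψ, hΨ, h3, h4⟩ := ih _ (hn ▸ relIndex_lt_index (hZN.trans h1) hH) (Z.subgroupOf H) rfl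
      (fun z hz => Subgroup.mem_center_iff.2 fun y =>
        Subtype.ext (Subgroup.mem_center_iff.1 (hZ hz) y))
      (hZp.coprime_dvd_left (PLocal.PSolv.card_subgroupOf_dvd _ _)) (PLocal.PSolv.subgroup hG H) _
      (isCharacter_restrict H hχ)
    let φ := (QuotientGroup.mk' (pCore p G)).comp H.subtype
    have hφ : Function.Surjective φ := by
      rw [← MonoidHom.range_eq_top, MonoidHom.range_comp, Subgroup.range_subtype,
        ← bot_sup_eq (H.map _), ← QuotientGroup.map_mk'_self, ← Subgroup.map_sup, h2,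
        Subgroup.map_top_of_surjective _ (QuotientGroup.mk'_surjective _)]
    obtain ⟨Ξ, hΞ, h5⟩ := exists_char_comp_eq φ hφ hΨ fun g hg =>
      h3 g (PLocal.PSolv.pCore_subgroupOf_le H ((QuotientGroup.eq_one_iff (g : G)).1 hg))
    have h6 := isCharacter_inflate _ hΞ
    refine ⟨_, h6, fun q hq => ?_, reg_ext fun g hg => ?_⟩
    · rw [(QuotientGroup.eq_one_iff _).2 hq, QuotientGroup.mk_one]
    · obtain ⟨k, hk⟩ := exists_conj_mem_of_sup_eq_top PLocal.PSolv.isPGroup_pCore h2 hg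
      refine (isClassFunction_of_isCharacter h6 g k).symm.trans ((h5 ⟨_, hk⟩).trans ?_)
      rw [← isClassFunction_of_isCharacter hχ g k]
      exact eq_of_reg_eq h4 (by rwa [Subgroup.orderOf_mk, Blk.orderOf_conj'])
  · have := Fintype.ofFinite (pPrimeCore p G)
    refine isCharacter_induction (P := Lifts p) ⟨0, isCharacter_zero, fun _ _ => rfl, rfl⟩
      (fun χ ψ hχ _ h => ?_) hχ
    obtain ⟨θ, hθ⟩ := exists_under (pPrimeCore p G) ⟨χ, hχ⟩
    obtain ⟨K, _, _, Z', hK, hZ', hZp', hi, σ, c, h1⟩ :=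
      exists_red hM hG _ PLocal.PSolv.coprime_card_pPrimeCore θ
    obtain ⟨Ψ, hΨ, h2, h3⟩ := h1.lifts ⟨χ, hχ⟩ hθ
      (ih _ (hn ▸ hi.trans_lt (index_lt_of_lt hN)) Z' rfl hZ' hZp' hK _ (irr_isCharacter _))
    obtain ⟨Ψ', hΨ', h2', h3'⟩ := h
    refine ⟨Ψ + Ψ', isCharacter_add hΨ hΨ', fun q hq => ?_, ?_⟩
    · rw [Pi.add_apply, Pi.add_apply, h2 q hq, h2' q hq]
    · rw [pRegularPart_add, pRegularPart_add, h3, h3']

end triple

end CfsgLib.Cover
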